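import Groth.Agent.Flat2F.GeomPts
import Groth.Agent.FlatA.ZMTFactor
import Mathlib.FieldTheory.Fixed
import Mathlib.LinearAlgebra.Dimension.Constructions

/-!
The number of geometric points in the fibres of a quasi-finite morphism of affine schemes is bounded.
-/

set_option autoImplicit false
universe u

namespace Groth.Agent.Old.H19.GeomCard

open AlgebraicGeometry CategoryTheory Limits
open Groth.Agent.Flat2F Groth.Agent.Flat2F.FibreIntegral Groth.Agent.Flat2F.GeomPts

/-- The number of homomorphisms from a finite algebra to a field. -/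
lemma card_algHom_le {A B K : Type u} [CommRing A] [CommRing B] [Field K] [Algebra A B]
    [Algebra A K] {n : ℕ} (s : Fin n → B) (hs : Submodule.span A (Set.range s) = ⊤) :
    Finite (B →ₐ[A] K) ∧ Nat.card (B →ₐ[A] K) ≤ n := by
  let e : (B →ₗ[A] K) →ₗ[K] (Fin n → K) :=
    { toFun := fun φ i => φ (s i)
      map_add' := fun _ _ => rfl
      map_smul' := fun _ _ => rfl }
  have he : LinearMap.ker e = ⊥ := by
    rw [LinearMap.ker_eq_bot']
    intro φ hφ
    have : φ = 0 := by
      refine LinearMap.ext_on_range hs fun i => ?_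
      exact congrFun hφ i
    exact this
  have h1 : LinearIndependent K (fun φ : B →ₐ[A] K => e φ.toLinearMap) :=
    (linearIndependent_toLinearMap A B K).map' e he
  have h2 : Finite (B →ₐ[A] K) := h1.finite
  refine ⟨h2, ?_⟩
  have := Fintype.ofFinite (B →ₐ[A] K)
  have h3 := h1.fintype_card_le_finrank
  rw [Module.finrank_fin_fun] at h3
  rwa [Nat.card_eq_fintype_card]

variable {X Y : Scheme.{u}}

/-- For a finite morphism to an affine scheme the number of geometric points in the fibres is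
bounded. -/
lemma exists_bound_of_isFinite (f : X ⟶ Y) [IsAffine Y] [IsFinite f] :
    ∃ N : ℕ, ∀ (K : Type u) [Field K] [IsAlgClosed K] (ω : Spec (.of K) ⟶ Y),
      Finite {s : Spec (.of K) ⟶ X // s ≫ f = ω} ∧ Nat.card {s : Spec (.of K) ⟶ X // s ≫ f = ω} ≤ N := by
  have : IsAffine X := isAffine_of_isAffineHom f
  let := f.appTop.hom.toAlgebra
  have hfin : Module.Finite Γ(Y, ⊤) Γ(X, ⊤) := f.finite_appTop
  obtain ⟨n, s, hs⟩ := Module.Finite.exists_fin (R := Γ(Y, ⊤)) (M := Γ(X, ⊤))
  refine ⟨n, fun K _ _ ω => ?_⟩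
  let : Algebra Γ(Y, ⊤) K := (ω.appTop ≫ (Scheme.ΓSpecIso (.of K)).hom).hom.toAlgebra
  obtain ⟨h1, h2⟩ := card_algHom_le (K := K) s hs
  let F : {s : Spec (.of K) ⟶ X // s ≫ f = ω} → (Γ(X, ⊤) →ₐ[Γ(Y, ⊤)] K) := fun s =>
    { (s.1.appTop ≫ (Scheme.ΓSpecIso (.of K)).hom).hom with
      commutes' := fun r => by
        have h : f.appTop ≫ s.1.appTop ≫ (Scheme.ΓSpecIso (.of K)).hom =
            ω.appTop ≫ (Scheme.ΓSpecIso (.of K)).hom := by
          rw [← Category.assoc, ← Scheme.Hom.comp_appTop, s.2]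
        exact congr(($h).hom r) }
  have hF : Function.Injective F := by
    intro s t hst
    apply Subtype.ext
    refine ext_of_isAffine ?_
    rw [← cancel_mono (Scheme.ΓSpecIso (.of K)).hom]
    ext r
    exact congr($hst r)
  exact ⟨Finite.of_injective F hF, (Nat.card_le_card_of_injective F hF).trans h2⟩

/-- For a quasi-finite morphism of affine schemes the number of geometric points in the fibres is
bounded. -/
theorem exists_bound (f : X ⟶ Y) [IsAffine X] [IsAffine Y] [LocallyQuasiFinite f]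
    [LocallyOfFiniteType f] :
    ∃ N : ℕ, ∀ (K : Type u) [Field K] [IsAlgClosed K] (ω : Spec (.of K) ⟶ Y),
      Finite {s : Spec (.of K) ⟶ X // s ≫ f = ω} ∧ Nat.card {s : Spec (.of K) ⟶ X // s ≫ f = ω} ≤ N := by
  obtain ⟨T, j, π, -, hj, -, hπ, rfl⟩ := Groth.Agent.FlatA.ZMTFactor.exists_factor_of_isAffine f
  obtain ⟨N, hN⟩ := exists_bound_of_isFinite π
  refine ⟨N, fun K _ _ ω => ?_⟩
  obtain ⟨h1, h2⟩ := hN K ω
  let F : {s : Spec (.of K) ⟶ X // s ≫ j ≫ π = ω} → {s : Spec (.of K) ⟶ T // s ≫ π = ω} :=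
    fun s => ⟨s.1 ≫ j, by rw [Category.assoc]; exact s.2⟩
  have hF : Function.Injective F := by
    intro s t hst
    apply Subtype.ext
    rw [← cancel_mono j]
    exact congr(($hst).1)
  exact ⟨Finite.of_injective F hF, (Nat.card_le_card_of_injective F hF).trans h2⟩

end Groth.Agent.Old.H19.GeomCard
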