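import Groth.Agent.Old.H19.WeightNear
import Groth.Agent.Old.H19.GeomCard
import Mathlib.Data.Set.Card.Arithmetic
import Mathlib.Data.Int.ConditionallyCompleteOrder

/-!
Weightings on quasi-compact schemes take finitely many values and their fibre integrals are bounded.
-/

set_option autoImplicit false
universe u

namespace Groth.Agent.Old.H19.WeightBdd

open AlgebraicGeometry CategoryTheory Limits Topology
open Groth.Agent.Flat2F Groth.Agent.Flat2F.FibreIntegral Groth.Agent.Flat2F.GeomPts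
open Groth.Agent.Flat2F.Split Groth.Agent.Flat2F.WeightLoc
open Groth.Agent.Old.H19.WeightNear Groth.Agent.Old.H19.GeomCard

variable {X Y : Scheme.{u}}

lemma isPullback_of_mono {A B C : Scheme.{u}} (a : A ⟶ B) (i : B ⟶ C) [Mono i] :
    IsPullback (𝟙 A) a (a ≫ i) i :=
  ⟨⟨by simp⟩, ⟨PullbackCone.IsLimit.mk _ (fun s => s.fst) (by simp)
    (fun s => by rw [← cancel_mono i, Category.assoc, s.condition])
    (fun s m h1 _ => by simpa using h1)⟩⟩

/-- Every point has an affine neighbourhood mapping to an affine open, on which a weighting takes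
finitely many values and with bounded geometric fibres over the target. -/
lemma exists_nhd (f : X ⟶ Y) [LocallyQuasiFinite f] [LocallyOfFiniteType f] (w : X → ℤ)
    (hw : MoreMor.IsWeighting f w) (x : X) :
    ∃ W : X.Opens, x ∈ W ∧ (w '' W).Finite ∧
      ∃ N : ℕ, ∀ (K : Type u) [Field K] [IsAlgClosed K] (ω : Spec (.of K) ⟶ Y),
        Finite (L f ω W) ∧ Nat.card (L f ω W) ≤ N := by
  obtain ⟨V, hV, hxV, -⟩ := exists_isAffineOpen_mem_and_subset (X := Y) (x := f x) (U := ⊤) trivial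
  obtain ⟨W, hW, hxW, hWV⟩ := exists_isAffineOpen_mem_and_subset (X := X) (x := x) (U := f ⁻¹ᵁ V) hxV
  have : IsAffine V := hV
  have : IsAffine W := hW
  let f₀ : (W : Scheme.{u}) ⟶ V := f.resLE V W hWV
  have hf₀ : f₀ ≫ V.ι = W.ι ≫ f := f.resLE_comp_ι hWV
  have hq : LocallyQuasiFinite (f₀ ≫ V.ι) := by rw [hf₀]; infer_instance
  have hq₀ : LocallyQuasiFinite f₀ := .of_comp f₀ V.ι
  have hft' : LocallyOfFiniteType (f₀ ≫ V.ι) := by rw [hf₀]; infer_instance
  have hft : LocallyOfFiniteType f₀ := locallyOfFiniteType_of_comp f₀ V.ι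
  have hw₁ : MoreMor.IsWeighting (W.ι ≫ f) (fun x => w (W.ι x)) := isWeighting_comp_open W.ι f hw
  have hc : IsPullback (𝟙 (W : Scheme.{u})) f₀ (W.ι ≫ f) V.ι := by
    rw [← hf₀]
    exact isPullback_of_mono f₀ V.ι
  have hw₀ : MoreMor.IsWeighting f₀ (fun x => w (W.ι x)) := isWeighting_of_isPullback hc hw₁
  have hfin := finite_range_of_isAffine f₀ _ hw₀
  obtain ⟨N, hN⟩ := exists_bound f₀
  refine ⟨W, hxW, ?_, N, fun K _ _ ω => ?_⟩
  · refine hfin.subset ?_
    rintro _ ⟨a, ha, rfl⟩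
    exact ⟨⟨a, ha⟩, rfl⟩
  · by_cases hω : ω (pt K) ∈ V
    · let ω₀ := liftOpen V ω hω
      have hω₀ : ω₀ ≫ V.ι = ω := liftOpen_ι V ω hω
      obtain ⟨h1, h2⟩ := hN K ω₀
      let F : L f ω W → {s : Spec (.of K) ⟶ W // s ≫ f₀ = ω₀} := fun s =>
        ⟨liftOpen W s.1 s.2.2, by
          rw [← cancel_mono V.ι, Category.assoc, hf₀, hω₀, ← Category.assoc, liftOpen_ι]
          exact s.2.1⟩
      have hF : Function.Injective F := by
        intro s t hst
        apply Subtype.ext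
        rw [← liftOpen_ι W s.1 s.2.2, ← liftOpen_ι W t.1 t.2.2]
        exact congr(($hst).1 ≫ W.ι)
      exact ⟨Finite.of_injective F hF, (Nat.card_le_card_of_injective F hF).trans h2⟩
    · have : IsEmpty (L f ω W) := ⟨fun s => hω (by
        have h := apply_pt_of_mem_L s.2
        rw [← h]
        exact hWV s.2.2)⟩
      exact ⟨inferInstance, by simp⟩

/-- On a quasi-compact source a weighting takes finitely many values and the geometric fibres are
finite of bounded cardinality. -/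
theorem exists_bounds (f : X ⟶ Y) [LocallyQuasiFinite f] [LocallyOfFiniteType f] [CompactSpace X]
    (w : X → ℤ) (hw : MoreMor.IsWeighting f w) :
    (Set.range w).Finite ∧
      ∃ N : ℕ, ∀ (K : Type u) [Field K] [IsAlgClosed K] (ω : Spec (.of K) ⟶ Y),
        (L f ω ⊤).Finite ∧ (L f ω ⊤).ncard ≤ N := by
  choose W hxW hWw N hN using exists_nhd f w hw
  obtain ⟨t, ht⟩ := isCompact_univ.elim_finite_subcover (fun x : X => (W x : Set X))
    (fun x => (W x).2) (fun x _ => Set.mem_iUnion.mpr ⟨x, hxW x⟩)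
  have hmem : ∀ x : X, ∃ i ∈ t, x ∈ W i := fun x => by
    simpa using ht (Set.mem_univ x)
  refine ⟨?_, ∑ i ∈ t, N i, fun K _ _ ω => ?_⟩
  · refine (Set.Finite.biUnion t.finite_toSet (fun i _ => hWw i)).subset ?_
    rintro _ ⟨x, rfl⟩
    obtain ⟨i, hi, hx⟩ := hmem x
    exact Set.mem_iUnion₂.mpr ⟨i, hi, x, hx, rfl⟩
  · have h1 : L f ω ⊤ ⊆ ⋃ i ∈ t, L f ω (W i) := by
      intro s hs
      obtain ⟨i, hi, hx⟩ := hmem (s (pt K))
      exact Set.mem_iUnion₂.mpr ⟨i, hi, hs.1, hx⟩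
    have h2 : (⋃ i ∈ t, L f ω (W i)).Finite :=
      Set.Finite.biUnion t.finite_toSet (fun i _ => (hN i K ω).1)
    refine ⟨h2.subset h1, (Set.ncard_le_ncard h1 h2).trans ?_⟩
    exact (Finset.set_ncard_biUnion_le t _).trans (Finset.sum_le_sum fun i _ => (hN i K ω).2)

/-- The fibre integral of a weighting on a quasi-compact scheme is bounded in absolute value. -/
theorem exists_abs_fibreIntegral_le (f : X ⟶ Y) [LocallyQuasiFinite f] [LocallyOfFiniteType f]
    [CompactSpace X] (w : X → ℤ) (hw : MoreMor.IsWeighting f w) :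
    ∃ B : ℤ, ∀ y, |MoreMor.fibreIntegral f w y| ≤ B := by
  obtain ⟨h1, N, hN⟩ := exists_bounds f w hw
  obtain ⟨M, hM⟩ : ∃ M : ℤ, ∀ x, |w x| ≤ M := by
    obtain ⟨M, hM⟩ := (h1.image (fun n => |n|)).bddAbove
    exact ⟨M, fun x => hM ⟨w x, ⟨x, rfl⟩, rfl⟩⟩
  refine ⟨N * max M 0, fun y => ?_⟩
  obtain ⟨K, _, _, ω, rfl⟩ := exists_geometric_point Y y
  obtain ⟨h2, h3⟩ := hN K ω
  rw [fibreIntegral_top, finsum_mem_eq_finite_toFinset_sum _ h2]
  calc |∑ s ∈ h2.toFinset, w (s (pt K))| ≤ ∑ s ∈ h2.toFinset, |w (s (pt K))| :=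
        Finset.abs_sum_le_sum_abs _ _
    _ ≤ ∑ s ∈ h2.toFinset, max M 0 := Finset.sum_le_sum fun s _ => (hM _).trans (le_max_left _ _)
    _ = (h2.toFinset.card : ℤ) * max M 0 := by rw [Finset.sum_const, nsmul_eq_mul]
    _ ≤ N * max M 0 := by
      refine mul_le_mul_of_nonneg_right ?_ (le_max_right _ _)
      rw [← Set.ncard_eq_toFinset_card _ h2]
      exact_mod_cast h3

/-- The fibre integral attains its maximum. -/
theorem exists_max (f : X ⟶ Y) [LocallyQuasiFinite f] [LocallyOfFiniteType f]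
    [CompactSpace X] (w : X → ℤ) (hw : MoreMor.IsWeighting f w) [Nonempty Y] :
    ∃ y₀ : Y, ∀ y : Y, MoreMor.fibreIntegral f w y ≤ MoreMor.fibreIntegral f w y₀ := by
  obtain ⟨B, hB⟩ := exists_abs_fibreIntegral_le f w hw
  have hbdd : BddAbove (Set.range (MoreMor.fibreIntegral f w)) :=
    ⟨B, by rintro _ ⟨y, rfl⟩; exact (le_abs_self _).trans (hB y)⟩
  obtain ⟨y₀, hy₀⟩ := Int.csSup_mem (Set.range_nonempty _) hbdd
  exact ⟨y₀, fun y => hy₀ ▸ le_csSup hbdd ⟨y, rfl⟩⟩

end Groth.Agent.Old.H19.WeightBdd
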