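import Groth.Agent.Flat2F.WeightLoc
import Groth.Agent.EtpbcA.ConstrTop
import Groth.Agent.Ega43.FPOfComp
import Mathlib.AlgebraicGeometry.Morphisms.FinitePresentation

/-!
A weighting of a quasi-finite morphism of affine schemes (locally of finite type, not necessarily of
finite presentation) is constant on a constructible neighbourhood of every point of the source;
in particular it takes only finitely many values.
-/

set_option autoImplicit false
universe u

namespace Groth.Agent.Old.H19.WeightNear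

open AlgebraicGeometry CategoryTheory Limits Topology
open Groth.Agent.Flat2F Groth.Agent.Flat2F.FibreIntegral Groth.Agent.Flat2F.GeomPts
open Groth.Agent.Flat2F.Split Groth.Agent.Flat2F.WeightLoc

/-- A point outside the image of a constructible set has a constructible neighbourhood missing the
image (no finite presentation hypothesis). -/
lemma exists_isConstructible_disjoint {P V : Scheme.{u}} [IsAffine P] [IsAffine V] (p : P ⟶ V)
    (D : Set P) (hD : IsConstructible D) (v : V) (hv : v ∉ p '' D) :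
    ∃ C : Set V, v ∈ C ∧ IsConstructible C ∧ ∀ x ∈ D, p x ∉ C := by
  let ι := {C : Set V // v ∈ C ∧ IsConstructible C}
  let 𝒞 : Option ι → Set P := fun o => o.elim Dᶜ (fun C => p ⁻¹' (C.1ᶜ))
  have h𝒞 : ∀ o, IsConstructible (𝒞 o) := by
    rintro (_ | C)
    · exact hD.compl
    · exact p.isConstructible_preimage C.2.2.compl
  have hcov : (⋃ o, 𝒞 o) = Set.univ := by
    refine Set.eq_univ_of_forall fun x => Set.mem_iUnion.mpr ?_
    by_cases hx : x ∈ D
    swap
    · exact ⟨none, hx⟩
    have hne : ¬ Inseparable v (p x) := by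
      intro h
      exact hv ⟨x, hx, h.eq.symm⟩
    rw [not_inseparable_iff_exists_open] at hne
    obtain ⟨U, hU, h⟩ := hne
    rcases h with ⟨h1, h2⟩ | ⟨h1, h2⟩
    · obtain ⟨W, hW, hvW, hWU⟩ := V.isBasis_affineOpens.exists_subset_of_mem_open h1 hU
      obtain ⟨W, hW0, rfl⟩ := hW
      refine ⟨some ⟨W, hvW, IsCompact.isConstructible (IsAffineOpen.isCompact hW0) W.2⟩, ?_⟩
      exact fun h => h2 (hWU h)
    · obtain ⟨W, hW, hvW, hWU⟩ := V.isBasis_affineOpens.exists_subset_of_mem_open h1 hU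
      obtain ⟨W, hW0, rfl⟩ := hW
      refine ⟨some ⟨(W : Set V)ᶜ, fun h => h2 (hWU h),
        (IsCompact.isConstructible (IsAffineOpen.isCompact hW0) W.2).compl⟩, ?_⟩
      exact fun h => h hvW
  obtain ⟨t, ht⟩ := Groth.Agent.EtpbcA.ConstrTop.finite_subcover 𝒞 h𝒞 hcov
  let C : Set V := ⋂ i ∈ {i : ι | some i ∈ t}, i.1
  refine ⟨C, ?_, ?_, ?_⟩
  · exact Set.mem_iInter₂.mpr fun i _ => i.2.1
  · refine IsConstructible.biInter ?_ fun i _ => i.2.2
    exact t.finite_toSet.preimage (Option.some_injective _).injOn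
  · intro x hx hxC
    have h1 : x ∈ ⋃ i ∈ t, 𝒞 i := ht ▸ Set.mem_univ x
    simp only [Set.mem_iUnion, exists_prop] at h1
    obtain ⟨i, hi, hxi⟩ := h1
    rcases i with _ | i
    · exact hxi hx
    · exact hxi (Set.mem_iInter₂.mp hxC i hi)

/-- At most one geometric point over each geometric point supported at `v`. -/
def AtMostOne {U V : Scheme.{u}} (q : U ⟶ V) (v : V) : Prop :=
  ∀ (K : Type u) [Field K] [IsAlgClosed K] (s t : Spec (.of K) ⟶ U), s ≫ q = t ≫ q →
    q (s (pt K)) = v → s = t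

/-- If a `K`-point of the target of a closed immersion is supported on the range, it lifts. -/
lemma exists_lift_of_mem_range {Z P : Scheme.{u}} (i : Z ⟶ P) [IsClosedImmersion i] {K : Type u}
    [Field K] (m : Spec (.of K) ⟶ P) (hm : m (pt K) ∈ Set.range i) :
    ∃ l : Spec (.of K) ⟶ Z, l ≫ i = m := by
  obtain ⟨z, hz⟩ := hm
  obtain ⟨e, he1, he2⟩ := Scheme.Pullback.exists_preimage_pullback (f := i) (g := m) z (pt K) hz
  have hs : Surjective (pullback.snd i m) := ⟨fun x => ⟨e, by
    rw [he2]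
    exact Subsingleton.elim (α := PrimeSpectrum K) _ _⟩⟩
  have hr : IsReduced (Spec (.of K)) := inferInstance
  have := isIso_of_isClosedImmersion_of_surjective (pullback.snd i m)
  refine ⟨inv (pullback.snd i m) ≫ pullback.fst i m, ?_⟩
  rw [Category.assoc, pullback.condition, IsIso.inv_hom_id_assoc]

/-- The locus where the fibres have at most one geometric point is open in the constructible
topology. -/
lemma AtMostOne.exists_isConstructible {U V : Scheme.{u}} [IsAffine U] [IsAffine V] (q : U ⟶ V)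
    [LocallyOfFiniteType q] (v : V) (hv : AtMostOne q v) :
    ∃ C : Set V, v ∈ C ∧ IsConstructible C ∧ ∀ v' ∈ C, AtMostOne q v' := by
  have hfp : LocallyOfFinitePresentation (pullback.diagonal q) := by
    have : LocallyOfFinitePresentation (pullback.diagonal q ≫ pullback.fst q q) := by
      rw [pullback.diagonal_fst]
      infer_instance
    exact Groth.Agent.Ega43.FPOfComp.locallyOfFinitePresentation_of_comp _ (pullback.fst q q)
  have hD : IsConstructible (Set.range (pullback.diagonal q))ᶜ := by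
    rw [← Set.image_univ]
    exact ((pullback.diagonal q).isConstructible_image IsConstructible.univ).compl
  obtain ⟨C, hvC, hC, hCD⟩ := exists_isConstructible_disjoint (pullback.fst q q ≫ q) _ hD v (by
    rintro ⟨z, hz, hzv⟩
    apply hz
    obtain ⟨K, _, _, m, rfl⟩ := exists_geometric_point _ z
    have h1 : m ≫ pullback.fst q q = m ≫ pullback.snd q q := by
      refine hv K _ _ ?_ ?_
      · rw [Category.assoc, Category.assoc, pullback.condition]
      · rw [← hzv, Scheme.Hom.comp_apply, Scheme.Hom.comp_apply]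
    have h2 : (m ≫ pullback.fst q q) ≫ pullback.diagonal q = m := by
      refine pullback.hom_ext ?_ ?_
      · rw [Category.assoc, pullback.diagonal_fst, Category.comp_id]
      · rw [Category.assoc, pullback.diagonal_snd, Category.comp_id, h1]
    refine ⟨(m ≫ pullback.fst q q) (pt K), ?_⟩
    rw [← Scheme.Hom.comp_apply, h2])
  refine ⟨C, hvC, hC, fun v' hv' K _ _ s t hst hs => ?_⟩
  let m : Spec (.of K) ⟶ pullback q q := pullback.lift s t hst
  have hm : m (pt K) ∈ Set.range (pullback.diagonal q) := by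
    by_contra h
    refine hCD _ h ?_
    rw [Scheme.Hom.comp_apply, ← Scheme.Hom.comp_apply m, pullback.lift_fst, hs]
    exact hv'
  obtain ⟨l, hl⟩ := exists_lift_of_mem_range _ m hm
  have h1 : s = m ≫ pullback.fst q q := (pullback.lift_fst _ _ _).symm
  have h2 : t = m ≫ pullback.snd q q := (pullback.lift_snd _ _ _).symm
  rw [h1, h2, ← hl, Category.assoc, Category.assoc, pullback.diagonal_fst, pullback.diagonal_snd]

/-- The fibre integral over a point with a single geometric point above it. -/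
lemma AtMostOne.fibreIntegral {U V : Scheme.{u}} (q : U ⟶ V) [LocallyQuasiFinite q] (w : U → ℤ)
    (x : U) (h : AtMostOne q (q x)) : MoreMor.fibreIntegral q w (q x) = w x := by
  obtain ⟨K, _, _, ω, hω⟩ := exists_geometric_point V (q x)
  obtain ⟨s₀, hs₀, hs₀x⟩ := exists_lift q ω x hω.symm
  rw [← hω, fibreIntegral_eq]
  rw [finsum_eq_single _ (⟨s₀, hs₀⟩ : {s : Spec (.of K) ⟶ U // s ≫ q = ω})]
  · rw [hs₀x]
  · intro t ht
    refine (ht (Subtype.ext (h K t.1 s₀ (t.2.trans hs₀.symm) ?_))).elim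
    rw [← Scheme.Hom.comp_apply, t.2, hω]

lemma atMostOne_of_uniq {X Y : Scheme.{u}} {f : X ⟶ Y} {y : Y} {U : X.Opens} (hU : Uniq f y U) :
    AtMostOne (U.ι ≫ f) y := by
  intro K _ _ s t hst hs
  have hω : (s ≫ U.ι ≫ f) (pt K) = y := by rw [Scheme.Hom.comp_apply]; exact hs
  have h := (hU K (s ≫ U.ι ≫ f) hω).unique (y₁ := s ≫ U.ι) (y₂ := t ≫ U.ι)
    ⟨by rw [Category.assoc], by rw [Scheme.Hom.comp_apply]; exact ι_apply_mem U _⟩
    ⟨by rw [Category.assoc, hst], by rw [Scheme.Hom.comp_apply]; exact ι_apply_mem U _⟩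
  rwa [cancel_mono] at h

variable {X Y : Scheme.{u}}

/-- A weighting is constant on a constructible neighbourhood of each point. -/
theorem exists_isConstructible_weight (f : X ⟶ Y) [IsAffine X] [IsAffine Y] [LocallyQuasiFinite f]
    [LocallyOfFiniteType f] (w : X → ℤ) (hw : MoreMor.IsWeighting f w) (x : X) :
    ∃ C : Set X, x ∈ C ∧ IsConstructible C ∧ ∀ x' ∈ C, w x' = w x := by
  obtain ⟨V, g, v, hg, hv, H⟩ := exists_splitOver_singleton f x
  obtain ⟨V₀, hV₀, hvV₀, -⟩ := exists_isAffineOpen_mem_and_subset (X := V) (x := v) (U := ⊤) trivial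
  have : IsAffine V₀ := hV₀
  let g₀ : (V₀ : Scheme.{u}) ⟶ Y := V₀.ι ≫ g
  let v₀ : (V₀ : Scheme.{u}) := ⟨v, hvV₀⟩
  have H₀ : SplitOver f {x} g₀ v₀ := H.refine V₀.ι rfl
  have hv₀ : g₀ v₀ = f x := hv
  obtain ⟨z, hz1, hz2⟩ := Scheme.Pullback.exists_preimage_pullback (f := f) (g := g₀) x v₀ hv₀.symm
  obtain ⟨U, hzU, hUf, hUu⟩ := H₀ z hz1 hz2
  rw [hz2] at hUu
  let q : (U : Scheme.{u}) ⟶ V₀ := U.ι ≫ pullback.snd f g₀
  have hqf : IsFinite q := hUf
  have : IsAffine U := isAffine_of_isAffineHom q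
  let z₀ : (U : Scheme.{u}) := ⟨z, hzU⟩
  have hqz : q z₀ = v₀ := hz2
  have hone : AtMostOne q v₀ := atMostOne_of_uniq hUu
  obtain ⟨C₁, hvC₁, hC₁, hC₁one⟩ := hone.exists_isConstructible
  have hloc : IsLocallyConstant (MoreMor.fibreIntegral q (fun u => w (pullback.fst f g₀ (U.ι u)))) :=
    isLocallyConstant_of_isPullback (IsPullback.of_hasPullback f g₀) hw U
  have hmem : {y' | MoreMor.fibreIntegral q (fun u => w (pullback.fst f g₀ (U.ι u))) y' =
      MoreMor.fibreIntegral q (fun u => w (pullback.fst f g₀ (U.ι u))) v₀} ∈ 𝓝 v₀ :=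
    (hloc.isOpen_fiber _).mem_nhds rfl
  obtain ⟨N, hN0, hyN, hN⟩ := (Scheme.isBasis_affineOpens _).mem_nhds_iff.mp hmem
  obtain ⟨N, hN0, rfl⟩ := hN0
  have hNc : IsConstructible (N : Set V₀) := IsCompact.isConstructible (IsAffineOpen.isCompact hN0) N.2
  let r : (U : Scheme.{u}) ⟶ X := U.ι ≫ pullback.fst f g₀
  have hr : r z₀ = x := hz1
  refine ⟨r '' (q ⁻¹' (C₁ ∩ N)), ⟨z₀, ⟨?_, ?_⟩, hr⟩, ?_, ?_⟩
  · rw [hqz]; exact hvC₁
  · rw [hqz]; exact hyN
  · exact r.isConstructible_image (q.isConstructible_preimage (hC₁.inter hNc))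
  · rintro _ ⟨u, ⟨hu1, hu2⟩, rfl⟩
    have h1 := AtMostOne.fibreIntegral q (fun u => w (pullback.fst f g₀ (U.ι u))) u (hC₁one _ hu1)
    have h2 := AtMostOne.fibreIntegral q (fun u => w (pullback.fst f g₀ (U.ι u))) z₀ (by
      rw [hqz]; exact hone)
    have h3 := hN hu2
    rw [Set.mem_ofPred_eq, h1, ← hqz, h2] at h3
    rw [← hr]
    exact h3

/-- A weighting takes finitely many values. -/
theorem finite_range_of_isAffine (f : X ⟶ Y) [IsAffine X] [IsAffine Y] [LocallyQuasiFinite f]
    [LocallyOfFiniteType f] (w : X → ℤ) (hw : MoreMor.IsWeighting f w) : (Set.range w).Finite := by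
  choose C hxC hC hCw using exists_isConstructible_weight f w hw
  obtain ⟨t, ht⟩ := Groth.Agent.EtpbcA.ConstrTop.finite_subcover C hC
    (Set.eq_univ_of_forall fun x => Set.mem_iUnion.mpr ⟨x, hxC x⟩)
  refine (t.finite_toSet.image w).subset ?_
  rintro _ ⟨x, rfl⟩
  have h1 : x ∈ ⋃ i ∈ t, C i := ht ▸ Set.mem_univ x
  simp only [Set.mem_iUnion, exists_prop] at h1
  obtain ⟨i, hi, hxi⟩ := h1
  exact ⟨i, hi, (hCw i x hxi).symm⟩

/-- Restriction of a weighting along an open immersion into the source. -/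
theorem isWeighting_comp_open {W : Scheme.{u}} (j : W ⟶ X) [IsOpenImmersion j] (f : X ⟶ Y)
    [LocallyQuasiFinite f] {w : X → ℤ} (hw : MoreMor.IsWeighting f w) :
    MoreMor.IsWeighting (j ≫ f) (fun x => w (j x)) := by
  intro V g _ U hU
  let m : pullback (j ≫ f) g ⟶ pullback f g :=
    pullback.lift (pullback.fst _ _ ≫ j) (pullback.snd _ _) (by
      rw [Category.assoc]; exact pullback.condition)
  have hm2 : m ≫ pullback.snd f g = pullback.snd (j ≫ f) g := pullback.lift_snd _ _ _
  have hm1 : m ≫ pullback.fst f g = pullback.fst (j ≫ f) g ≫ j := pullback.lift_fst _ _ _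
  have hm : IsPullback m (pullback.fst (j ≫ f) g) (pullback.fst f g) j := by
    have h1 : IsPullback (pullback.fst (j ≫ f) g) (pullback.snd (j ≫ f) g) (j ≫ f) g :=
      IsPullback.of_hasPullback _ _
    have h2 : IsPullback (pullback.fst f g) (pullback.snd f g) f g := IsPullback.of_hasPullback _ _
    refine IsPullback.of_right (h₁₂ := pullback.snd f g) (v₁₃ := g) (h₂₂ := f) ?_ hm1 h2.flip
    rw [hm2]
    exact h1.flip
  have hmo : IsOpenImmersion m := MorphismProperty.of_isPullback hm.flip ‹_›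
  have hU' : IsFinite ((m ''ᵁ U).ι ≫ pullback.snd f g) := by
    have : IsFinite (U.ι ≫ m ≫ pullback.snd f g) := by rw [hm2]; exact hU
    exact isFinite_image_ι m _ U
  have h1 := hw V g (m ''ᵁ U) hU'
  convert h1 using 1
  ext v
  have hc : IsPullback (m.isoImage U).hom (U.ι ≫ pullback.snd (j ≫ f) g)
      ((m ''ᵁ U).ι ≫ pullback.snd f g) (𝟙 V) := by
    refine IsPullback.of_horiz_isIso ⟨?_⟩
    rw [Scheme.Hom.isoImage_hom_ι_assoc, hm2, Category.comp_id]
  have h2 := fibreIntegral_baseChange _ _ _ _ hc (fun u => w (pullback.fst f g ((m ''ᵁ U).ι u))) v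
  rw [show (𝟙 V : V ⟶ V) v = v from rfl] at h2
  rw [← h2]
  congr 1
  ext u
  simp only [Function.comp_apply]
  rw [← Scheme.Hom.comp_apply, ← Scheme.Hom.comp_apply, ← Scheme.Hom.comp_apply,
    ← Scheme.Hom.comp_apply, Scheme.Hom.isoImage_hom_ι_assoc, hm1]

end Groth.Agent.Old.H19.WeightNear
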